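import Cfsg.Agent.H873.RG.Defs

/-!
# Counting fixed points of a cover

* `card_move_le` : `#{n ∈ N : n⁻¹ x n ∈ K} ≤ |C_N(x)| · |N ∩ K|` for a normal subgroup `N`;
* `card_le_sum` : if the members of a cover cover the orbit of a point then `|N| ≤ Σ #{n ∈ N : n⁻¹ x_i n ∈ G_ω}`;
* `outer_sum` : `Σ B^(f/r_i) ≤ Σ_{a ≤ f/3} B^a` for different divisors `r_i ≥ 3` of `f`;
* `card_pow_le` : the number of different primes `≥ B` dividing `n`.
-/

set_option autoImplicit false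

namespace Cfsg.Agent.H452.RG

open MulAction Cfsg.Agent.H106.RC

/-- fixed points in the orbit of a normal subgroup -/
theorem card_move_le {G : Type*} [Group G] [Finite G] (N K : Subgroup G) (hN : N.Normal) (x : G) :
    Nat.card {n : N // (n : G)⁻¹ * x * n ∈ K} ≤
      Nat.card {n : N // x * n = n * x} * Nat.card ↥(N ⊓ K) := by
  classical
  rcases isEmpty_or_nonempty {n : N // (n : G)⁻¹ * x * n ∈ K} with h0 | ⟨⟨n₀, hn₀⟩⟩
  · rw [Nat.card_of_isEmpty]; exact Nat.zero_le _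
  have hmem : ∀ n : {n : N // (n : G)⁻¹ * x * n ∈ K},
      ((n₀ : G)⁻¹ * x * n₀)⁻¹ * (((n : N) : G)⁻¹ * x * (n : N)) ∈ N ⊓ K := by
    rintro ⟨n, hn⟩
    refine ⟨?_, K.mul_mem (K.inv_mem hn₀) hn⟩
    have h1 : ((n₀ : G)⁻¹ * x * n₀)⁻¹ * ((n : G)⁻¹ * x * n) =
        (n₀ : G)⁻¹ * (x⁻¹ * ((n₀ : G) * (n : G)⁻¹) * x⁻¹⁻¹) * n := by group
    change ((n₀ : G)⁻¹ * x * n₀)⁻¹ * ((n : G)⁻¹ * x * n) ∈ N
    rw [h1]
    exact N.mul_mem (N.mul_mem (N.inv_mem n₀.2) (hN.conj_mem _ (N.mul_mem n₀.2 (N.inv_mem n.2)) x⁻¹)) n.2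
  -- the fibres
  have hfib : ∀ n n' : {n : N // (n : G)⁻¹ * x * n ∈ K},
      ((n₀ : G)⁻¹ * x * n₀)⁻¹ * (((n : N) : G)⁻¹ * x * (n : N)) =
        ((n₀ : G)⁻¹ * x * n₀)⁻¹ * (((n' : N) : G)⁻¹ * x * (n' : N)) →
      x * (((n' : N) * (n : N)⁻¹ : N) : G) = (((n' : N) * (n : N)⁻¹ : N) : G) * x := by
    rintro ⟨n, hn⟩ ⟨n', hn'⟩ h
    have h1 := mul_left_cancel h
    have h2 : (n : G)⁻¹ * x * n = (n' : G)⁻¹ * x * n' := h1
    change x * ((n' : G) * (n : G)⁻¹) = ((n' : G) * (n : G)⁻¹) * x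
    calc x * ((n' : G) * (n : G)⁻¹) = n' * ((n' : G)⁻¹ * x * n') * (n : G)⁻¹ := by group
      _ = n' * ((n : G)⁻¹ * x * n) * (n : G)⁻¹ := by rw [h2]
      _ = ((n' : G) * (n : G)⁻¹) * x := by group
  let f : {n : N // (n : G)⁻¹ * x * n ∈ K} → ↥(N ⊓ K) := fun n => ⟨_, hmem n⟩
  -- choose a section
  let c : ↥(N ⊓ K) → {n : N // (n : G)⁻¹ * x * n ∈ K} := fun k =>
    if h : ∃ n, f n = k then h.choose else ⟨n₀, hn₀⟩
  have hc : ∀ n, f (c (f n)) = f n := by
    intro n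
    have h : ∃ n', f n' = f n := ⟨n, rfl⟩
    simp only [c, dif_pos h]
    exact h.choose_spec
  let g : {n : N // (n : G)⁻¹ * x * n ∈ K} → {n : N // x * n = n * x} × ↥(N ⊓ K) := fun n =>
    (⟨(n : N) * ((c (f n) : N))⁻¹, hfib (c (f n)) n (congrArg Subtype.val (hc n))⟩, f n)
  have hg : Function.Injective g := by
    intro n n' h
    have h1 : f n = f n' := congrArg Prod.snd h
    have h2 : (n : N) * ((c (f n) : N))⁻¹ = (n' : N) * ((c (f n') : N))⁻¹ :=
      congrArg (fun z => ((z.1 : {n : N // x * n = n * x}) : N)) h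
    rw [h1] at h2
    exact Subtype.ext (mul_right_cancel h2)
  have h3 := Nat.card_le_card_of_injective g hg
  rwa [Nat.card_prod] at h3

/-- a cover of an orbit -/
theorem card_le_sum {G Ω ι : Type*} [Group G] [Finite G] [MulAction G Ω] [Fintype ι] (N : Subgroup G)
    {x : ι → G} (h : Cov Ω x) (ω : Ω) :
    Nat.card N ≤ ∑ i, Nat.card {n : N // (n : G)⁻¹ * x i * n ∈ stabilizer G ω} := by
  classical
  have h1 : ∀ n : N, ∃ i, (n : G)⁻¹ * x i * n ∈ stabilizer G ω := by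
    intro n
    obtain ⟨i, hi⟩ := h ((n : G) • ω)
    refine ⟨i, ?_⟩
    rw [mem_stabilizer_iff, mul_smul, mul_smul, hi, inv_smul_smul]
  let f : N → Σ i, {n : N // (n : G)⁻¹ * x i * n ∈ stabilizer G ω} := fun n =>
    ⟨(h1 n).choose, ⟨n, (h1 n).choose_spec⟩⟩
  have hf : Function.Injective f := by
    intro a b hab
    have h2 : ∀ u v : (Σ i, {n : N // (n : G)⁻¹ * x i * n ∈ stabilizer G ω}), u = v → (u.2 : N) = v.2 := by
      rintro u v rfl; rfl
    exact h2 _ _ hab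
  have h3 := Nat.card_le_card_of_injective f hf
  rwa [Nat.card_sigma] at h3

/-- sum over different divisors -/
theorem outer_sum {ι : Type*} (O : Finset ι) {r : ι → ℕ} (hr : Function.Injective r) {f : ℕ}
    (hf : f ≠ 0) (h3 : ∀ i ∈ O, 3 ≤ r i ∧ r i ∣ f) (B : ℕ) :
    ∑ i ∈ O, B ^ (f / r i) ≤ ∑ a ∈ Finset.range (f / 3 + 1), B ^ a := by
  classical
  have hinj : Set.InjOn (fun i => f / r i) O := by
    intro i hi j hj hij
    apply hr
    obtain ⟨a, ha⟩ := (h3 i hi).2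
    obtain ⟨b, hb⟩ := (h3 j hj).2
    have hi0 : 0 < r i := by have := (h3 i hi).1; omega
    have hj0 : 0 < r j := by have := (h3 j hj).1; omega
    have h1 : f / r i = a := by
      rw [ha]; exact Nat.mul_div_cancel_left _ hi0
    have h2 : f / r j = b := by
      rw [hb]; exact Nat.mul_div_cancel_left _ hj0
    simp only at hij
    rw [h1, h2] at hij
    subst hij
    have ha0 : a ≠ 0 := by rintro rfl; apply hf; rw [ha, mul_zero]
    have h4 : r i * a = r j * a := by rw [← ha, ← hb]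
    exact Nat.eq_of_mul_eq_mul_right (Nat.pos_of_ne_zero ha0) h4
  rw [← Finset.sum_image (f := fun a => B ^ a) hinj]
  apply Finset.sum_le_sum_of_subset
  intro a ha
  obtain ⟨i, hi, rfl⟩ := Finset.mem_image.1 ha
  rw [Finset.mem_range]
  have : f / r i ≤ f / 3 := Nat.div_le_div_left (h3 i hi).1 (by norm_num)
  omega

/-- number of primes `≥ B` dividing `n` -/
theorem card_pow_le {ι : Type*} (I : Finset ι) {r : ι → ℕ} (hr : Function.Injective r)
    (hp : ∀ i ∈ I, (r i).Prime) {n B : ℕ} (hn : n ≠ 0) (hd : ∀ i ∈ I, r i ∣ n) (hB : ∀ i ∈ I, B ≤ r i) :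
    B ^ I.card ≤ n := by
  classical
  have h1 : ∏ i ∈ I, r i ∣ n := by
    have h2 := Finset.prod_primes_dvd (s := I.image r) n (fun a ha => by
      obtain ⟨i, hi, rfl⟩ := Finset.mem_image.1 ha
      exact (hp i hi).prime) (fun a ha => by
      obtain ⟨i, hi, rfl⟩ := Finset.mem_image.1 ha
      exact hd i hi)
    rwa [Finset.prod_image (fun i _ j _ h => hr h)] at h2
  exact (Finset.pow_card_le_prod I r B hB).trans (Nat.le_of_dvd (Nat.pos_of_ne_zero hn) h1)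

end Cfsg.Agent.H452.RG
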