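import Mathlib

/-!
# Sets of group elements moving an element into a subgroup

`FS ι K x = {n : (ι n)⁻¹ x (ι n) ∈ K}` for a homomorphism `ι : N → G`.

* `FS_mul`, `FS_pow`, `ncard_FS_conj`;
* `ncard_disj` : sets of the same size, disjoint outside `W`;
* `FS_dihedral` : `p |FS t| ≤ |N| + p |FS y|` for an involution `t` inverting `y` of odd prime order `p`;
* `FS_elem` : `3 |FS e| ≤ |N| + 2 |⋂ FS e|` for a `3`-group `E` with constant `|FS e|`.
-/

set_option autoImplicit false

namespace Cfsg.Agent.H452.RG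

variable {N G : Type*} [Group N] [Group G]

/-- elements moving `x` into `K` -/
def FS (ι : N →* G) (K : Subgroup G) (x : G) : Set N := {n | (ι n)⁻¹ * x * ι n ∈ K}

/-- elements moving the set `E` into `K` -/
def FSS (ι : N →* G) (K : Subgroup G) (E : Set G) : Set N := {n | ∀ e ∈ E, (ι n)⁻¹ * e * ι n ∈ K}

variable {ι : N →* G} {K : Subgroup G}

theorem mem_FS {x : G} {n : N} : n ∈ FS ι K x ↔ (ι n)⁻¹ * x * ι n ∈ K := Iff.rfl

theorem mem_FSS {E : Set G} {n : N} : n ∈ FSS ι K E ↔ ∀ e ∈ E, n ∈ FS ι K e := Iff.rfl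

theorem FS_mul {x y : G} {n : N} (hx : n ∈ FS ι K x) (hy : n ∈ FS ι K y) : n ∈ FS ι K (x * y) := by
  have h1 := K.mul_mem hx hy
  have h2 : (ι n)⁻¹ * (x * y) * ι n = (ι n)⁻¹ * x * ι n * ((ι n)⁻¹ * y * ι n) := by group
  rw [mem_FS, h2]
  exact h1

theorem FS_one {n : N} : n ∈ FS ι K 1 := by
  rw [mem_FS]
  have : (ι n)⁻¹ * 1 * ι n = 1 := by group
  rw [this]
  exact K.one_mem

theorem FS_inv {x : G} {n : N} (hx : n ∈ FS ι K x) : n ∈ FS ι K x⁻¹ := by
  have h1 := K.inv_mem hx
  have h2 : (ι n)⁻¹ * x⁻¹ * ι n = ((ι n)⁻¹ * x * ι n)⁻¹ := by group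
  rw [mem_FS, h2]
  exact h1

theorem FS_pow {x : G} {n : N} (hx : n ∈ FS ι K x) (k : ℕ) : n ∈ FS ι K (x ^ k) := by
  induction k with
  | zero => rw [pow_zero]; exact FS_one
  | succ k ih => rw [pow_succ]; exact FS_mul ih hx

theorem FS_zpow {x : G} {n : N} (hx : n ∈ FS ι K x) (k : ℤ) : n ∈ FS ι K (x ^ k) := by
  rcases Int.eq_nat_or_neg k with ⟨j, rfl | rfl⟩
  · rw [zpow_natCast]; exact FS_pow hx j
  · rw [zpow_neg, zpow_natCast]; exact FS_inv (FS_pow hx j)

theorem FS_conj_iff {x : G} {n g : N} : n ∈ FS ι K (ι g * x * (ι g)⁻¹) ↔ g⁻¹ * n ∈ FS ι K x := by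
  rw [mem_FS, mem_FS, map_mul, map_inv]
  have h : (ι n)⁻¹ * (ι g * x * (ι g)⁻¹) * ι n = ((ι g)⁻¹ * ι n)⁻¹ * x * ((ι g)⁻¹ * ι n) := by group
  rw [h]

theorem ncard_FS_conj (x : G) (g : N) : (FS ι K (ι g * x * (ι g)⁻¹)).ncard = (FS ι K x).ncard := by
  have h1 : FS ι K (ι g * x * (ι g)⁻¹) = (fun n => g * n) '' FS ι K x := by
    ext n
    rw [FS_conj_iff]
    constructor
    · intro h
      exact ⟨g⁻¹ * n, h, by simp⟩
    · rintro ⟨n', h, rfl⟩
      simpa using h
  rw [h1]
  exact Set.ncard_image_of_injective _ (mul_right_injective g)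

theorem ncard_FS_inv (x : G) : FS ι K x⁻¹ = FS ι K x := by
  ext n
  constructor
  · intro h
    have := FS_inv h
    rwa [inv_inv] at this
  · exact FS_inv

theorem ncard_FSS_conj (E : Set G) (g : N) :
    (FSS ι K ((fun e => ι g * e * (ι g)⁻¹) '' E)).ncard = (FSS ι K E).ncard := by
  have h1 : FSS ι K ((fun e => ι g * e * (ι g)⁻¹) '' E) = (fun n => g * n) '' FSS ι K E := by
    ext n
    constructor
    · intro h
      refine ⟨g⁻¹ * n, ?_, by simp⟩
      intro e he
      exact FS_conj_iff.1 (h _ ⟨e, he, rfl⟩)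
    · rintro ⟨n', h, rfl⟩
      rintro _ ⟨e, he, rfl⟩
      change g * n' ∈ FS ι K (ι g * e * (ι g)⁻¹)
      rw [FS_conj_iff, inv_mul_cancel_left]
      exact h e he
  rw [h1]
  exact Set.ncard_image_of_injective _ (mul_right_injective g)

/-- elements moving the members of a subgroup into `K` -/
def FSub (ι : N →* G) (K : Subgroup G) (n : N) : Subgroup G where
  carrier := {x | n ∈ FS ι K x}
  mul_mem' h1 h2 := FS_mul h1 h2
  one_mem' := FS_one
  inv_mem' h := FS_inv h

theorem mem_FSub {n : N} {x : G} : x ∈ FSub ι K n ↔ n ∈ FS ι K x := Iff.rfl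

/-- sets of the same size, disjoint outside `W` -/
theorem ncard_disj {Y J : Type*} [Finite Y] [Finite J] (F : J → Set Y) (W : Set Y) {a : ℕ}
    (ha : ∀ i, (F i).ncard = a) (hd : ∀ i j, i ≠ j → F i ∩ F j ⊆ W) :
    Nat.card J * a ≤ Nat.card Y + Nat.card J * W.ncard := by
  classical
  have hJ := Fintype.ofFinite J
  have hY := Fintype.ofFinite Y
  have h1 : Nat.card (Σ i, ↥(F i \ W)) ≤ Nat.card Y := by
    refine Nat.card_le_card_of_injective (fun x => (x.2 : Y)) ?_
    rintro ⟨i, x, hx, hxW⟩ ⟨j, y, hy, hyW⟩ h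
    have h' : x = y := h
    subst h'
    by_cases hij : i = j
    · subst hij; rfl
    · exact absurd (hd i j hij ⟨hx, hy⟩) hxW
  rw [Nat.card_sigma] at h1
  have h2 : ∀ i, a ≤ Nat.card ↥(F i \ W) + W.ncard := by
    intro i
    rw [Nat.card_coe_set_eq, ← ha i]
    exact Set.ncard_le_ncard_sdiff_add_ncard _ _
  calc Nat.card J * a = ∑ _i : J, a := by rw [Finset.sum_const, Finset.card_univ, smul_eq_mul, Nat.card_eq_fintype_card]
    _ ≤ ∑ i : J, (Nat.card ↥(F i \ W) + W.ncard) := Finset.sum_le_sum fun i _ => h2 i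
    _ = ∑ i : J, Nat.card ↥(F i \ W) + Nat.card J * W.ncard := by
        rw [Finset.sum_add_distrib, Finset.sum_const, Finset.card_univ, smul_eq_mul, Nat.card_eq_fintype_card]
    _ ≤ _ := Nat.add_le_add_right h1 _

/-- the ratio of an involution inverting an element of odd prime order -/
theorem FS_dihedral [Finite N] {p : ℕ} (hp : p.Prime) (hp2 : p ≠ 2) {t y : N} (hy : orderOf y = p) (htt : t * t = 1)
    (hty : t * y * t = y⁻¹) : p * (FS ι K (ι t)).ncard ≤ Nat.card N + p * (FS ι K (ι y)).ncard := by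
  classical
  let F : Fin p → Set N := fun j => FS ι K (ι (y ^ (j : ℕ)) * ι t * (ι (y ^ (j : ℕ)))⁻¹)
  have hcard : Nat.card (Fin p) = p := by rw [Nat.card_eq_fintype_card, Fintype.card_fin]
  have h1 := ncard_disj F (FS ι K (ι y)) (a := (FS ι K (ι t)).ncard) (fun i => ncard_FS_conj _ _) ?_
  · rwa [hcard] at h1
  intro i j hij n hn
  have h2 := FS_mul hn.1 hn.2
  -- `t_i t_j = y ^ (2 (i - j))`
  have htz : ∀ k : ℤ, t * y ^ k * t = y ^ (-k) := by
    intro k
    have h3 : t⁻¹ = t := inv_eq_of_mul_eq_one_left htt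
    have h4 : t * y ^ k * t = (t * y * t⁻¹) ^ k := by rw [conj_zpow, h3]
    rw [h4, h3, hty, inv_zpow, zpow_neg]
  have h3 : (ι (y ^ (i : ℕ)) * ι t * (ι (y ^ (i : ℕ)))⁻¹) * (ι (y ^ (j : ℕ)) * ι t * (ι (y ^ (j : ℕ)))⁻¹) =
      ι (y ^ (2 * ((i : ℤ) - (j : ℤ)))) := by
    rw [← map_inv, ← map_inv, ← map_mul, ← map_mul, ← map_mul, ← map_mul, ← map_mul]
    congr 1
    calc y ^ (i : ℕ) * t * (y ^ (i : ℕ))⁻¹ * (y ^ (j : ℕ) * t * (y ^ (j : ℕ))⁻¹)
        = y ^ (i : ℤ) * (t * y ^ (-(i : ℤ) + (j : ℤ)) * t) * y ^ (-(j : ℤ)) := by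
          rw [zpow_add, zpow_neg, zpow_neg, zpow_natCast, zpow_natCast]; group
      _ = y ^ (2 * ((i : ℤ) - (j : ℤ))) := by
          rw [htz, ← zpow_add, ← zpow_add]
          congr 1
          ring
  rw [h3] at h2
  -- `y` is a power of it
  have h4 : IsCoprime (2 * ((i : ℤ) - (j : ℤ))) (p : ℤ) := by
    have hpi : Prime (p : ℤ) := Nat.prime_iff_prime_int.1 hp
    rw [isCoprime_comm]
    refine (Prime.coprime_iff_not_dvd hpi).2 ?_
    intro h5
    rcases hpi.dvd_or_dvd h5 with h6 | h6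
    · have h7 : p ∣ 2 := by exact_mod_cast h6
      exact hp2 ((Nat.prime_dvd_prime_iff_eq hp Nat.prime_two).1 h7)
    · apply hij
      have h7 := Int.eq_zero_of_abs_lt_dvd h6 (by
        rw [abs_lt]
        constructor
        · have := i.2; have := j.2; omega
        · have := i.2; have := j.2; omega)
      apply Fin.ext
      omega
  obtain ⟨u, v, huv⟩ := h4
  have h5 := FS_zpow h2 u
  have h6 : ι (y ^ (2 * ((i : ℤ) - (j : ℤ)))) ^ u = ι y := by
    rw [← map_zpow, ← zpow_mul]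
    congr 1
    have h7 : 2 * ((i : ℤ) - (j : ℤ)) * u = 1 - p * v := by linear_combination huv
    rw [h7, zpow_sub, zpow_one, zpow_mul, zpow_natCast, ← hy, pow_orderOf_eq_one, one_zpow, inv_one, mul_one]
  rw [h6] at h5
  exact h5

/-- a `3`-group all of whose nonidentity elements have the same ratio -/
theorem FS_elem [Finite N] (E : Subgroup G) {f : ℕ} (hf : f ≠ 0) (hE : Nat.card E = 3 ^ f) {a : ℕ}
    (ha : ∀ e ∈ E, e ≠ 1 → (FS ι K e).ncard = a) :
    3 * a ≤ Nat.card N + 2 * (FSS ι K (E : Set G)).ncard := by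
  classical
  have hEf : Finite E := Nat.finite_of_card_ne_zero (by rw [hE]; positivity)
  have hEF := Fintype.ofFinite E
  have hNF := Fintype.ofFinite N
  let P : N → E → Prop := fun n e => n ∈ FS ι K (e : G)
  -- double counting
  have h1 : ∑ e : E, (Finset.univ.filter fun n => P n e).card = ∑ n : N, (Finset.univ.filter fun e => P n e).card := by
    simp only [Finset.card_filter]
    exact Finset.sum_comm
  have h2 : ∀ e : E, e ≠ 1 → (Finset.univ.filter fun n => P n e).card = a := by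
    intro e he
    rw [← ha e e.2 (fun h => he (Subtype.ext h)), Set.ncard_eq_toFinset_card', ]
    congr 1
    ext n
    simp [P]
  have h3 : (Finset.univ.filter fun n => P n 1).card = Nat.card N := by
    rw [Nat.card_eq_fintype_card, ← Finset.card_univ]
    congr 1
    rw [Finset.filter_true_of_mem]
    intro n _
    exact FS_one
  have h4 : ∑ e : E, (Finset.univ.filter fun n => P n e).card = Nat.card N + (3 ^ f - 1) * a := by
    rw [← Finset.add_sum_erase _ _ (Finset.mem_univ (1 : E)), h3]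
    congr 1
    rw [Finset.sum_congr rfl (fun e he => h2 e (Finset.ne_of_mem_erase he)), Finset.sum_const,
      Finset.card_erase_of_mem (Finset.mem_univ _), Finset.card_univ, ← Nat.card_eq_fintype_card, hE, smul_eq_mul]
  -- the fibres
  have h5 : ∀ n : N, (Finset.univ.filter fun e => P n e).card = Nat.card ↥((FSub ι K n).subgroupOf E) := by
    intro n
    rw [Nat.card_eq_fintype_card, Fintype.card_subtype]
    congr 1
  have h6 : ∀ n : N, n ∉ FSS ι K (E : Set G) → 3 * (Finset.univ.filter fun e => P n e).card ≤ 3 ^ f := by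
    intro n hn
    rw [h5]
    have h7 := ((FSub ι K n).subgroupOf E).card_mul_index
    rw [hE] at h7
    have h8 : ((FSub ι K n).subgroupOf E).index ∣ 3 ^ f := ⟨_, by rw [mul_comm]; exact h7.symm⟩
    obtain ⟨k, -, hk⟩ := (Nat.dvd_prime_pow Nat.prime_three).1 h8
    have h9 : ((FSub ι K n).subgroupOf E).index ≠ 1 := by
      intro h
      apply hn
      rw [Subgroup.index_eq_one] at h
      intro e he
      have : (⟨e, he⟩ : E) ∈ (FSub ι K n).subgroupOf E := by rw [h]; trivial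
      exact this
    have h10 : 3 ≤ ((FSub ι K n).subgroupOf E).index := by
      rw [hk]
      rcases Nat.eq_zero_or_pos k with h0 | h0
      · rw [hk, h0, pow_zero] at h9
        exact absurd rfl h9
      · calc 3 = 3 ^ 1 := (pow_one 3).symm
          _ ≤ 3 ^ k := Nat.pow_le_pow_right (by norm_num) h0
    calc 3 * Nat.card ↥((FSub ι K n).subgroupOf E) = Nat.card ↥((FSub ι K n).subgroupOf E) * 3 := mul_comm _ _
      _ ≤ Nat.card ↥((FSub ι K n).subgroupOf E) * ((FSub ι K n).subgroupOf E).index := Nat.mul_le_mul_left _ h10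
      _ = 3 ^ f := h7
  have h7 : ∀ n : N, (Finset.univ.filter fun e => P n e).card ≤ 3 ^ f := by
    intro n
    rw [← hE, Nat.card_eq_fintype_card, ← Finset.card_univ]
    exact Finset.card_filter_le _ _
  -- summation
  have h8 : 3 * ∑ n : N, (Finset.univ.filter fun e => P n e).card ≤
      3 ^ f * Nat.card N + 2 * 3 ^ f * (FSS ι K (E : Set G)).ncard := by
    rw [Finset.mul_sum, Set.ncard_eq_toFinset_card', Nat.card_eq_fintype_card, ← Finset.card_univ]
    have h9 : ∀ n : N, 3 * (Finset.univ.filter fun e => P n e).card ≤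
        3 ^ f + (if n ∈ (FSS ι K (E : Set G)).toFinset then 2 * 3 ^ f else 0) := by
      intro n
      by_cases hn : n ∈ (FSS ι K (E : Set G)).toFinset
      · rw [if_pos hn]
        have := h7 n
        omega
      · rw [if_neg hn, add_zero]
        exact h6 n (fun h => hn (Set.mem_toFinset.2 h))
    calc ∑ n : N, 3 * (Finset.univ.filter fun e => P n e).card
        ≤ ∑ n : N, (3 ^ f + (if n ∈ (FSS ι K (E : Set G)).toFinset then 2 * 3 ^ f else 0)) :=
          Finset.sum_le_sum fun n _ => h9 n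
      _ = _ := by
          rw [Finset.sum_add_distrib, Finset.sum_const, smul_eq_mul, ← Finset.sum_filter, Finset.sum_const, smul_eq_mul,
            Finset.filter_mem_eq_inter, Finset.univ_inter]
          ring
  rw [← h1, h4] at h8
  have hb : (FSS ι K (E : Set G)).ncard ≤ Nat.card N := by
    rw [← Set.ncard_univ]
    exact Set.ncard_le_ncard (Set.subset_univ _) (Set.toFinite _)
  -- `3 (3^f - 1) a ≤ (3^f - 3) |N| + 2 3^f b`
  obtain ⟨Q, hQ⟩ : ∃ Q, 3 ^ f = Q + 1 := ⟨3 ^ f - 1, by have := Nat.one_le_pow f 3 (by norm_num); omega⟩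
  have hQ2 : 2 ≤ Q := by
    have : 3 ^ 1 ≤ 3 ^ f := Nat.pow_le_pow_right (by norm_num) (Nat.pos_of_ne_zero hf)
    omega
  rw [hQ, Nat.add_sub_cancel] at h8
  have h9 : Q * (3 * a) ≤ Q * (Nat.card N + 2 * (FSS ι K (E : Set G)).ncard) := by
    generalize (FSS ι K (E : Set G)).ncard = b at *
    generalize Nat.card N = M at *
    nlinarith
  exact Nat.le_of_mul_le_mul_left h9 (by omega)

end Cfsg.Agent.H452.RG
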