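import Cfsg.Agent.H452.RG.Fix
import Cfsg.Agent.LieRecognition.ReeSetup

/-!
# Fixed point ratios in groups with the Bruhat normal form of a Ree group

* `ratio_inv` : `p |FS t| ≤ |G| + p |FS (h a)|`, `t` an involution, `a` of odd prime order `p`;
* `two_FSS_z` : `2 |FSS Z(U)| ≤ |G|` for a proper subgroup;
* `two_FSS_q` : `2 |FSS {U 0 u 0}| ≤ |G| + |FS (h (a²))|`;
* `ratio_three` : `3 |FS z| ≤ 2 |G| + |FS (h (a²))|`, `z` of order `3`.
-/

set_option autoImplicit false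
set_option linter.unusedSectionVars false

namespace Cfsg.Agent.H452.RG.ReeD

open Cfsg.Agent.LieRecognition Cfsg.Agent.LieRecognition.ReeAbs Cfsg.Agent.LieRecognition.ReeSylowThree
  Cfsg.Agent.LieRecognition.ReeSplit MulAction

variable {K : Type*} [Field K] [Fintype K] {G : Type*} [Group G] [Finite G] {m : ℕ}
  {U : K → K → K → G} {h : Kˣ → G} {n : G}

theorem b_mul (D : Data m U h n) (t u v : K) (a : Kˣ) (t' u' v' : K) (a' : Kˣ) :
    ∃ t'' u'' v'', U t u v * h a * (U t' u' v' * h a') = U t'' u'' v'' * h (a * a') := by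
  have h1 : U t u v * h a * (U t' u' v' * h a') = U t u v * (h a * U t' u' v') * h a' := by group
  rw [h1, D.h_U, mul_assoc (U t u v), mul_assoc (U _ _ _) (h a), ← D.h_mul, ← mul_assoc, D.U_mul]
  exact ⟨_, _, _, rfl⟩

theorem b_pow (D : Data m U h n) (t u v : K) (a : Kˣ) (k : ℕ) :
    ∃ t' u' v', (U t u v * h a) ^ k = U t' u' v' * h (a ^ k) := by
  induction k with
  | zero => exact ⟨0, 0, 0, by rw [pow_zero, pow_zero, D.U_zero, D.h_one, one_mul]⟩
  | succ k ih =>
    obtain ⟨t', u', v', hk⟩ := ih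
    obtain ⟨t'', u'', v'', h1⟩ := b_mul D t' u' v' (a ^ k) t u v a
    exact ⟨t'', u'', v'', by rw [pow_succ, hk, h1, pow_succ]⟩

/-- the order of the torus part divides the order -/
theorem b_order (D : Data m U h n) (t u v : K) (a : Kˣ) : orderOf a ∣ orderOf (U t u v * h a) := by
  apply orderOf_dvd_of_pow_eq_one
  obtain ⟨t', u', v', h1⟩ := b_pow D t u v a (orderOf (U t u v * h a))
  rw [pow_orderOf_eq_one] at h1
  have h2 : U 0 0 0 * h 1 = U t' u' v' * h (a ^ orderOf (U t u v * h a)) := by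
    rw [← h1, D.U_zero, D.h_one, one_mul]
  exact (D.inj₁ _ _ _ _ _ _ _ _ h2).2.2.2.symm

/-- `3`-subgroups are conjugate into `U` -/
theorem three_le (D : Data m U h n) (hK : Fintype.card K = 3 ^ (2 * m + 1)) {R : Subgroup G} (hR : IsPGroup 3 R) :
    ∃ g : G, ∀ r ∈ R, g⁻¹ * r * g ∈ uSub D := by
  have : Fact (Nat.Prime 3) := ⟨Nat.prime_three⟩
  have h3 : ¬ 3 ∣ Nat.card (G ⧸ uSub D) := ReeClass.index_U (ReeSetup.local_of_data D hK) (ReeClass.arith m)
  obtain ⟨c, hc⟩ := hR.nonempty_fixed_point_of_prime_not_dvd_card (G ⧸ uSub D) h3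
  obtain ⟨g, rfl⟩ := QuotientGroup.mk_surjective c
  refine ⟨g, fun r hr => ?_⟩
  have h2 : ((r * g : G) : G ⧸ uSub D) = (g : G ⧸ uSub D) := hc ⟨r, hr⟩
  rw [eq_comm, QuotientGroup.eq] at h2
  simpa [mul_assoc] using h2

/-! ### The centre of `U` -/

theorem z_comm (D : Data m U h n) (t u v w : K) : U t u v * U 0 0 w = U 0 0 w * U t u v := by
  rw [D.U_mul, D.U_mul]
  have h0 : (0 : K) ^ (3 ^ (m + 1)) = 0 := zero_pow (by positivity)
  simp only [h0]
  congr 1 <;> ring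

/-- the centre of `U` -/
def zSub (D : Data m U h n) : Subgroup G where
  carrier := {g | ∃ v, g = U 0 0 v}
  mul_mem' := by
    rintro _ _ ⟨v, rfl⟩ ⟨w, rfl⟩
    refine ⟨v + w, ?_⟩
    rw [D.U_mul]
    have h0 : (0 : K) ^ (3 ^ (m + 1)) = 0 := zero_pow (by positivity)
    simp only [h0]
    congr 1 <;> ring
  one_mem' := ⟨0, D.U_zero.symm⟩
  inv_mem' := by
    rintro _ ⟨v, rfl⟩
    refine ⟨-v, ?_⟩
    rw [inv_eq_iff_mul_eq_one, D.U_mul, ← D.U_zero]
    have h0 : (0 : K) ^ (3 ^ (m + 1)) = 0 := zero_pow (by positivity)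
    simp only [h0]
    congr 1 <;> ring

theorem mem_zSub (D : Data m U h n) {g : G} : g ∈ zSub D ↔ ∃ v, g = U 0 0 v := Iff.rfl

theorem zSub_le (D : Data m U h n) : zSub D ≤ uSub D := by
  rintro _ ⟨v, rfl⟩
  exact ⟨0, 0, v, rfl⟩

theorem card_zSub (D : Data m U h n) : Nat.card (zSub D) = Fintype.card K := by
  rw [← Nat.card_eq_fintype_card]
  refine (Nat.card_congr (Equiv.ofBijective (fun v : K => (⟨U 0 0 v, v, rfl⟩ : zSub D)) ⟨?_, ?_⟩)).symm
  · intro v w hvw
    exact (U_injective D (congrArg Subtype.val hvw)).2.2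
  · rintro ⟨_, v, rfl⟩
    exact ⟨v, rfl⟩

theorem b_conj_z (D : Data m U h n) {g z : G} (hg : g ∈ bSub D) (hz : z ∈ zSub D) : g * z * g⁻¹ ∈ zSub D := by
  obtain ⟨t, u, v, a, rfl⟩ := hg
  obtain ⟨w, rfl⟩ := hz
  refine ⟨(a : K) ^ (2 * 3 ^ (m + 1) + 3) * w, ?_⟩
  have h1 := D.h_U a 0 0 w
  rw [mul_zero, mul_zero] at h1
  rw [mul_inv_eq_iff_eq_mul, mul_assoc, h1, ← mul_assoc, z_comm D, mul_assoc]

/-- **At most half of the conjugates of `Z(U)` lie in a proper subgroup.** -/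
theorem two_FSS_z [IsSimpleGroup G] (D : Data m U h n) (hK : Fintype.card K = 3 ^ (2 * m + 1)) {H : Subgroup G}
    (hH : H ≠ ⊤) : 2 * (FSS (MonoidHom.id G) H (zSub D : Set G)).ncard ≤ Nat.card G := by
  classical
  have h3p : Fact (Nat.Prime 3) := ⟨Nat.prime_three⟩
  obtain ⟨B, hB⟩ : ∃ B, B = bSub D := ⟨_, rfl⟩
  obtain ⟨q, hq⟩ : ∃ q, q = Fintype.card K := ⟨_, rfl⟩
  have hq3 : 3 ≤ q := by
    rw [hq, hK]
    calc 3 = 3 ^ 1 := by norm_num
      _ ≤ 3 ^ (2 * m + 1) := Nat.pow_le_pow_right (by norm_num) (by omega)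
  have hZ : Nat.card (zSub D) = q := by rw [card_zSub, hq]
  -- the predicate
  let P : G → Prop := fun g => ∀ z ∈ zSub D, g * z * g⁻¹ ∈ H
  have hPB : ∀ g b, b ∈ B → P g → P (g * b) := by
    intro g b hb hg z hz
    have h1 : g * b * z * (g * b)⁻¹ = g * (b * z * b⁻¹) * g⁻¹ := by group
    rw [h1]
    exact hg _ (b_conj_z D (hB ▸ hb) hz)
  have hPH : ∀ k g, k ∈ H → P g → P (k * g) := by
    intro k g hk hg z hz
    have h1 : k * g * z * (k * g)⁻¹ = k * (g * z * g⁻¹) * k⁻¹ := by group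
    rw [h1]
    exact H.mul_mem (H.mul_mem hk (hg z hz)) (H.inv_mem hk)
  let T : Set (G ⧸ B) := {x | P (Quotient.out x)}
  have hT : ∀ g : G, (g : G ⧸ B) ∈ T ↔ P g := by
    intro g
    obtain ⟨b, hb⟩ := QuotientGroup.mk_out_eq_mul B g
    change P (Quotient.out (g : G ⧸ B)) ↔ P g
    rw [hb]
    constructor
    · intro h1
      have h2 := hPB _ _ (B.inv_mem b.2) h1
      rwa [mul_inv_cancel_right] at h2
    · exact hPB _ _ b.2
  -- the number of elements
  have hFT : (FSS (MonoidHom.id G) H (zSub D : Set G)).ncard ≤ T.ncard * Nat.card B := by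
    rw [← Nat.card_coe_set_eq T, ← Nat.card_prod, ← Nat.card_coe_set_eq]
    let f : ↥(FSS (MonoidHom.id G) H (zSub D : Set G)) → ↥T × ↥B := fun x =>
      (⟨((x : G)⁻¹ : G), (hT _).2 (fun z hz => by
        have h1 := x.2 z hz
        change (x : G)⁻¹ * z * (x : G) ∈ H at h1
        rwa [inv_inv])⟩,
        ⟨(Quotient.out (((x : G)⁻¹ : G) : G ⧸ B))⁻¹ * (x : G)⁻¹, by
          rw [← QuotientGroup.eq]
          exact QuotientGroup.out_eq' _⟩)
    refine Nat.card_le_card_of_injective f ?_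
    intro x y hxy
    have h1 : (((x : G)⁻¹ : G) : G ⧸ B) = (((y : G)⁻¹ : G) : G ⧸ B) :=
      congrArg (fun z : ↥T × ↥B => (z.1 : G ⧸ B)) hxy
    have h2 : (Quotient.out (((x : G)⁻¹ : G) : G ⧸ B))⁻¹ * (x : G)⁻¹ =
        (Quotient.out (((y : G)⁻¹ : G) : G ⧸ B))⁻¹ * (y : G)⁻¹ :=
      congrArg (fun z : ↥T × ↥B => (z.2 : G)) hxy
    rw [h1] at h2
    exact Subtype.ext (inv_injective (mul_left_cancel h2))
  have hGB : Nat.card G = Nat.card (G ⧸ B) * Nat.card B := Subgroup.card_eq_card_quotient_mul_card_subgroup B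
  suffices hmain : 2 * T.ncard ≤ Nat.card (G ⧸ B) by
    rw [hGB]
    calc 2 * (FSS (MonoidHom.id G) H (zSub D : Set G)).ncard ≤ 2 * (T.ncard * Nat.card B) := Nat.mul_le_mul_left _ hFT
      _ = (2 * T.ncard) * Nat.card B := by ring
      _ ≤ _ := Nat.mul_le_mul_right _ hmain
  rcases T.eq_empty_or_nonempty with hT0 | ⟨x₀, hx₀⟩
  · rw [hT0]; simp
  obtain ⟨b₀, rfl⟩ := QuotientGroup.mk_surjective x₀
  have hb₀ : P b₀ := (hT b₀).1 hx₀
  -- a conjugate of `Z(U)` outside `H`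
  obtain ⟨c, hc⟩ : ∃ c : G, ¬ P c := by
    by_contra hno
    push Not at hno
    apply hH
    have h1 : Subgroup.normalClosure (zSub D : Set G) ≤ H := by
      rw [Subgroup.normalClosure, Subgroup.closure_le]
      intro x hx
      obtain ⟨z, hz, hxz⟩ := Group.mem_conjugatesOfSet_iff.1 hx
      obtain ⟨g, hg⟩ := isConj_iff.1 hxz
      rw [← hg]
      exact hno g z hz
    rcases (IsSimpleGroup.eq_bot_or_eq_top_of_normal _ (Subgroup.normalClosure_normal (s := (zSub D : Set G)))) with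
      h2 | h2
    · exfalso
      have h3 : zSub D ≤ ⊥ := by
        rw [← h2]
        exact Subgroup.subset_normalClosure
      have h4 : zSub D = ⊥ := le_bot_iff.1 h3
      rw [h4, Subgroup.card_bot] at hZ
      omega
    · rw [h2] at h1
      exact top_le_iff.1 h1
  -- `H ∩ c U c⁻¹ = 1`
  have hcU : ∀ w ∈ H, c⁻¹ * w * c ∈ uSub D → w = 1 := by
    intro w hw hwc
    by_contra hw1
    -- Sylow subgroups of `H`
    have hw9 : w ^ 9 = 1 := by
      have h1 := pow_nine D hK hwc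
      have h2 : (c⁻¹ * w * c) ^ 9 = c⁻¹ * w ^ 9 * c := by
        have := conj_pow (i := 9) (a := c⁻¹) (b := w)
        rwa [inv_inv] at this
      rw [h2] at h1
      calc w ^ 9 = c * (c⁻¹ * w ^ 9 * c) * c⁻¹ := by group
        _ = 1 := by rw [h1]; group
    have hpw : IsPGroup 3 (Subgroup.zpowers (⟨w, hw⟩ : H)) := by
      have h1 : (⟨w, hw⟩ : H) ^ 3 ^ 2 = 1 := Subtype.ext hw9
      obtain ⟨j, -, hj⟩ := (Nat.dvd_prime_pow Nat.prime_three).1 (orderOf_dvd_of_pow_eq_one h1)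
      exact IsPGroup.of_card (n := j) (by rw [Nat.card_zpowers, hj])
    obtain ⟨Rc, hRc⟩ := hpw.exists_le_sylow
    let E : Subgroup G := (zSub D).map (MulAut.conj b₀).toMonoidHom
    have hEH : E ≤ H := by
      rintro _ ⟨z, hz, rfl⟩
      exact hb₀ z hz
    have hpE : IsPGroup 3 E := by
      apply IsPGroup.of_card (n := 2 * m + 1)
      rw [← hK, ← card_zSub D]
      exact (Nat.card_congr ((zSub D).equivMapOfInjective _ (MulAut.conj b₀).injective).toEquiv).symm
    obtain ⟨R₀, hR₀⟩ := (hpE.comap_subtype (K := H)).exists_le_sylow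
    obtain ⟨k, hk⟩ := exists_smul_eq H Rc R₀
    -- `R₀` in a conjugate of `U`
    obtain ⟨g, hg⟩ := three_le D hK (R₀.2.map H.subtype)
    -- `g B = b₀ B`
    obtain ⟨z, hz, hz1⟩ : ∃ z ∈ zSub D, z ≠ 1 := by
      by_contra hno
      push Not at hno
      have h4 : zSub D = ⊥ := by
        rw [eq_bot_iff]
        intro x hx
        rw [Subgroup.mem_bot]
        exact hno x hx
      rw [h4, Subgroup.card_bot] at hZ
      omega
    have hzR : b₀ * z * b₀⁻¹ ∈ (R₀ : Subgroup H).map H.subtype := by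
      refine ⟨⟨b₀ * z * b₀⁻¹, hb₀ z hz⟩, hR₀ ?_, rfl⟩
      change b₀ * z * b₀⁻¹ ∈ E
      exact ⟨z, hz, rfl⟩
    have hgb : b₀⁻¹ * g ∈ B := by
      rw [hB]
      refine mem_bSub_of_inv_conj_mem D (zSub_le D hz) hz1 ?_
      have h1 := hg _ hzR
      have h2 : (b₀⁻¹ * g)⁻¹ * z * (b₀⁻¹ * g) = g⁻¹ * (b₀ * z * b₀⁻¹) * g := by group
      rw [h2]
      exact h1
    have hPg : P g := by
      have := hPB b₀ _ hgb hb₀
      rwa [mul_inv_cancel_left] at this
    -- the conjugate of `w`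
    have hwk : (k : G) * w * (k : G)⁻¹ ∈ (R₀ : Subgroup H).map H.subtype := by
      rw [← hk, Sylow.smul_def]
      refine ⟨k * ⟨w, hw⟩ * k⁻¹, ?_, rfl⟩
      exact ⟨⟨w, hw⟩, hRc (Subgroup.mem_zpowers _), rfl⟩
    have hkc : c⁻¹ * (k : G)⁻¹ * g ∈ B := by
      rw [hB]
      refine mem_bSub_of_inv_conj_mem D hwc ?_ ?_
      · intro h1
        apply hw1
        calc w = c * (c⁻¹ * w * c) * c⁻¹ := by group
          _ = 1 := by rw [h1]; group
      · have h1 := hg _ hwk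
        have h2 : (c⁻¹ * (k : G)⁻¹ * g)⁻¹ * (c⁻¹ * w * c) * (c⁻¹ * (k : G)⁻¹ * g) =
            g⁻¹ * ((k : G) * w * (k : G)⁻¹) * g := by group
        rw [h2]
        exact h1
    apply hc
    have h1 : P ((k : G)⁻¹ * g) := hPH _ _ (H.inv_mem k.2) hPg
    have h2 := hPB _ _ (B.inv_mem hkc) h1
    have h3 : (k : G)⁻¹ * g * (c⁻¹ * (k : G)⁻¹ * g)⁻¹ = c := by group
    rwa [h3] at h2
  -- the stabiliser in `H` of the point `c B`
  have hstab : Nat.card (stabilizer H (c : G ⧸ B)) ≤ q - 1 := by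
    have h1 : ∀ s : stabilizer H (c : G ⧸ B), ∃ t u v a, c⁻¹ * ((s : H) : G) * c = U t u v * h a := by
      rintro ⟨s, hs⟩
      have h2 : (((s : G) * c : G) : G ⧸ B) = (c : G ⧸ B) := hs
      rw [eq_comm, QuotientGroup.eq, hB] at h2
      rw [mul_assoc]
      exact h2
    choose t u v a hs using h1
    have hinj : Function.Injective a := by
      intro s s' hss
      have h2 : c⁻¹ * (((s : H) : G) * ((s' : H) : G)⁻¹) * c = U (t s) (u s) (v s) * (U (t s') (u s') (v s'))⁻¹ := by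
        calc c⁻¹ * (((s : H) : G) * ((s' : H) : G)⁻¹) * c =
            (c⁻¹ * ((s : H) : G) * c) * (c⁻¹ * ((s' : H) : G) * c)⁻¹ := by group
          _ = U (t s) (u s) (v s) * (U (t s') (u s') (v s'))⁻¹ := by
            rw [hs s, hs s', hss]; group
      have h3 : ((s : H) : G) * ((s' : H) : G)⁻¹ = 1 := by
        apply hcU
        · exact H.mul_mem (s : H).2 (H.inv_mem (s' : H).2)
        · rw [h2]
          exact (uSub D).mul_mem ⟨_, _, _, rfl⟩ ((uSub D).inv_mem ⟨_, _, _, rfl⟩)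
      exact Subtype.ext (Subtype.ext (mul_inv_eq_one.1 h3))
    have h2 := Nat.card_le_card_of_injective a hinj
    rwa [Nat.card_units, Nat.card_eq_fintype_card (α := K), ← hq] at h2
  -- the order of `H`
  have hHcard : T.ncard * (q - 1) < Nat.card H := by
    have h1 : Nat.card ({z : zSub D // z ≠ 1}) = q - 1 := by
      have h2 : Nat.card ({z : zSub D // z ≠ 1}) = ({1}ᶜ : Set (zSub D)).ncard := rfl
      rw [h2, Set.ncard_compl, Set.ncard_singleton, hZ]
    have h2 : ∀ x : T, P (Quotient.out (x : G ⧸ B)) := fun x => x.2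
    let f : Option (T × {z : zSub D // z ≠ 1}) → H := fun y =>
      match y with
      | none => 1
      | some y => ⟨Quotient.out (y.1 : G ⧸ B) * ((y.2 : zSub D) : G) * (Quotient.out (y.1 : G ⧸ B))⁻¹,
          h2 y.1 _ (y.2 : zSub D).2⟩
    have hf1 : ∀ y : T × {z : zSub D // z ≠ 1}, Quotient.out (y.1 : G ⧸ B) * ((y.2 : zSub D) : G) *
        (Quotient.out (y.1 : G ⧸ B))⁻¹ ≠ 1 := by
      intro y h3
      apply y.2.2
      apply Subtype.ext
      change ((y.2 : zSub D) : G) = 1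
      calc ((y.2 : zSub D) : G) = (Quotient.out (y.1 : G ⧸ B))⁻¹ * (Quotient.out (y.1 : G ⧸ B) * ((y.2 : zSub D) : G) *
        (Quotient.out (y.1 : G ⧸ B))⁻¹) * Quotient.out (y.1 : G ⧸ B) := by group
        _ = 1 := by rw [h3]; group
    have hf : Function.Injective f := by
      intro y y' hyy
      rcases y with _ | y <;> rcases y' with _ | y'
      · rfl
      · exact absurd (congrArg Subtype.val hyy).symm (hf1 y')
      · exact absurd (congrArg Subtype.val hyy) (hf1 y)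
      · congr 1
        have h3 : Quotient.out (y.1 : G ⧸ B) * ((y.2 : zSub D) : G) * (Quotient.out (y.1 : G ⧸ B))⁻¹ =
            Quotient.out (y'.1 : G ⧸ B) * ((y'.2 : zSub D) : G) * (Quotient.out (y'.1 : G ⧸ B))⁻¹ :=
          congrArg Subtype.val hyy
        obtain ⟨g, hg⟩ : ∃ g, g = Quotient.out (y.1 : G ⧸ B) := ⟨_, rfl⟩
        obtain ⟨g', hg'⟩ : ∃ g', g' = Quotient.out (y'.1 : G ⧸ B) := ⟨_, rfl⟩
        rw [← hg, ← hg'] at h3
        have h4 : g⁻¹ * g' ∈ B := by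
          rw [hB]
          refine mem_bSub_of_inv_conj_mem D (zSub_le D (y.2 : zSub D).2) (fun h5 => y.2.2 (Subtype.ext h5)) ?_
          have h5 : (g⁻¹ * g')⁻¹ * ((y.2 : zSub D) : G) * (g⁻¹ * g') = ((y'.2 : zSub D) : G) := by
            calc (g⁻¹ * g')⁻¹ * ((y.2 : zSub D) : G) * (g⁻¹ * g') = g'⁻¹ * (g * ((y.2 : zSub D) : G) * g⁻¹) * g' := by
                  group
              _ = ((y'.2 : zSub D) : G) := by rw [h3]; group
          rw [h5]
          exact zSub_le D (y'.2 : zSub D).2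
        have h5 : (y.1 : G ⧸ B) = (y'.1 : G ⧸ B) := by
          rw [← QuotientGroup.out_eq' (y.1 : G ⧸ B), ← QuotientGroup.out_eq' (y'.1 : G ⧸ B), ← hg, ← hg']
          exact QuotientGroup.eq.2 h4
        have h6 : g = g' := by rw [hg, hg', h5]
        rw [h6] at h3
        have h7 := mul_left_cancel (mul_right_cancel h3)
        exact Prod.ext (Subtype.ext h5) (Subtype.ext (Subtype.ext h7))
    have h3 := Nat.card_le_card_of_injective f hf
    rw [Finite.card_option, Nat.card_prod, h1, Nat.card_coe_set_eq] at h3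
    omega
  -- the orbit
  have horb := (stabilizer H (c : G ⧸ B)).card_mul_index
  rw [index_stabilizer] at horb
  have h1 : T.ncard < (orbit H (c : G ⧸ B)).ncard := by
    have h2 : T.ncard * (q - 1) < (orbit H (c : G ⧸ B)).ncard * (q - 1) := by
      calc T.ncard * (q - 1) < Nat.card H := hHcard
        _ = Nat.card (stabilizer H (c : G ⧸ B)) * (orbit H (c : G ⧸ B)).ncard := horb.symm
        _ ≤ (q - 1) * (orbit H (c : G ⧸ B)).ncard := Nat.mul_le_mul_right _ hstab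
        _ = _ := mul_comm _ _
    exact Nat.lt_of_mul_lt_mul_right h2
  have h2 : Disjoint T (orbit H (c : G ⧸ B)) := by
    rw [Set.disjoint_left]
    rintro _ hx ⟨k, rfl⟩
    apply hc
    have h3 : P ((k : G) * c) := (hT _).1 hx
    have h4 := hPH _ _ (H.inv_mem k.2) h3
    rwa [inv_mul_cancel_left] at h4
  have h3 : T.ncard + (orbit H (c : G ⧸ B)).ncard ≤ Nat.card (G ⧸ B) := by
    rw [← Set.ncard_union_eq h2, ← Set.ncard_univ]
    exact Set.ncard_le_ncard (Set.subset_univ _) (Set.toFinite _)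
  omega

/-! ### Involutions -/

theorem FS_n (D : Data m U h n) {H : Subgroup G} {a : Kˣ} {p : ℕ} (hp : p.Prime) (hp2 : p ≠ 2) (ha : orderOf a = p) :
    p * (FS (MonoidHom.id G) H n).ncard ≤ Nat.card G + p * (FS (MonoidHom.id G) H (h a)).ncard := by
  have h1 : orderOf (h a) = p := by
    rw [← ha]
    exact orderOf_injective (MonoidHom.mk' h D.h_mul) (h_injective D) a
  refine FS_dihedral (ι := MonoidHom.id G) (K := H) hp hp2 h1 D.n_n ?_
  rw [D.n_h, mul_assoc, D.n_n, mul_one, D.h_inv]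

/-- **The ratio of an involution.** -/
theorem ratio_inv [CharP K 3] (D : Data m U h n) (hK : Fintype.card K = 3 ^ (2 * m + 1)) (hG : commutator G = ⊤)
    {H : Subgroup G} {a : Kˣ} {p : ℕ} (hp : p.Prime) (hp2 : p ≠ 2) (ha : orderOf a = p) {t : G} (ht : orderOf t = 2) :
    p * (FS (MonoidHom.id G) H t).ncard ≤ Nat.card G + p * (FS (MonoidHom.id G) H (h a)).ncard := by
  obtain ⟨f, t₀, S⟩ := ReeSetup.exists_setup D hK hG (ReeSetup.local_of_data D hK)
  have hn1 : n ≠ 1 := by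
    intro h1
    refine D.ne 0 0 0 1 0 0 0 1 0 0 0 ?_
    rw [h1, D.h_one, D.U_zero, one_mul, one_mul, one_mul]
  have ht1 : t ≠ 1 := by
    rintro rfl
    rw [orderOf_one] at ht
    norm_num at ht
  have htt : t * t = 1 := by rw [← pow_two, ← ht, pow_orderOf_eq_one]
  obtain ⟨g, hg⟩ := S.conjG n hn1 D.n_n
  obtain ⟨g', hg'⟩ := S.conjG t ht1 htt
  have h1 : t = (MonoidHom.id G) (g' * g⁻¹) * n * ((MonoidHom.id G) (g' * g⁻¹))⁻¹ := by
    rw [MonoidHom.id_apply, ← hg', ← hg]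
    group
  rw [h1, ncard_FS_conj]
  exact FS_n D hp hp2 ha

/-! ### Elements of order `3` -/

/-- the root subgroup of the middle layer -/
def qSub (D : Data m U h n) : Subgroup G where
  carrier := {g | ∃ u, g = U 0 u 0}
  mul_mem' := by
    rintro _ _ ⟨v, rfl⟩ ⟨w, rfl⟩
    exact ⟨v + w, (D.U_add v w).symm⟩
  one_mem' := ⟨0, D.U_zero.symm⟩
  inv_mem' := by
    rintro _ ⟨v, rfl⟩
    exact ⟨-v, (D.U_neg v).symm⟩

theorem card_qSub (D : Data m U h n) : Nat.card (qSub D) = Fintype.card K := by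
  rw [← Nat.card_eq_fintype_card]
  refine (Nat.card_congr (Equiv.ofBijective (fun v : K => (⟨U 0 v 0, v, rfl⟩ : qSub D)) ⟨?_, ?_⟩)).symm
  · intro v w hvw
    exact (U_injective D (congrArg Subtype.val hvw)).2.1
  · rintro ⟨_, v, rfl⟩
    exact ⟨v, rfl⟩

theorem FS_z_const (D : Data m U h n) (hK : Fintype.card K = 3 ^ (2 * m + 1)) (H : Subgroup G) {v w : K} (hv : v ≠ 0)
    (hw : w ≠ 0) : (FS (MonoidHom.id G) H (U 0 0 v)).ncard = (FS (MonoidHom.id G) H (U 0 0 w)).ncard := by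
  -- `a ↦ a ^ k` is surjective
  have hinj : Function.Injective (powMonoidHom (2 * 3 ^ (m + 1) + 3) : Kˣ →* Kˣ) := by
    rw [injective_iff_map_eq_one]
    intro a ha
    exact ReeTorus.eq_one_of_pow_two_mul_add_three hK a ha
  obtain ⟨a, ha⟩ := Finite.surjective_of_injective hinj (Units.mk0 v hv * (Units.mk0 w hw)⁻¹)
  have ha' : (a : K) ^ (2 * 3 ^ (m + 1) + 3) * w = v := by
    have h1 := congrArg (fun x : Kˣ => (x : K)) ha
    simp only [powMonoidHom_apply, Units.val_pow_eq_pow_val, Units.val_mul, Units.val_mk0, Units.val_inv_eq_inv_val] at h1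
    rw [h1, mul_assoc, inv_mul_cancel₀ hw, mul_one]
  have h1 := D.h_U a 0 0 w
  rw [mul_zero, mul_zero, ha'] at h1
  have h2 : U 0 0 v = (MonoidHom.id G) (h a) * U 0 0 w * ((MonoidHom.id G) (h a))⁻¹ := by
    rw [MonoidHom.id_apply, h1]; group
  rw [h2, ncard_FS_conj]

theorem FS_q_const (D : Data m U h n) (hK : Fintype.card K = 3 ^ (2 * m + 1)) (H : Subgroup G) {v w : K} (hv : v ≠ 0)
    (hw : w ≠ 0) : (FS (MonoidHom.id G) H (U 0 v 0)).ncard = (FS (MonoidHom.id G) H (U 0 w 0)).ncard := by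
  -- squares
  have key : ∀ (b : Kˣ) (w : K), (FS (MonoidHom.id G) H (U 0 ((b : K) * b * w) 0)).ncard =
      (FS (MonoidHom.id G) H (U 0 w 0)).ncard := by
    intro b w
    have h1 := D.h_U (f m b) 0 w 0
    have h3 : ((f m b : Kˣ) : K) ^ (3 ^ (m + 1) + 3) = (b : K) * b := by
      rw [← Units.val_pow_eq_pow_val, f_pow hK, pow_two, Units.val_mul]
    rw [mul_zero, mul_zero, h3] at h1
    have h2 : U 0 ((b : K) * b * w) 0 = (MonoidHom.id G) (h (f m b)) * U 0 w 0 * ((MonoidHom.id G) (h (f m b)))⁻¹ := by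
      rw [MonoidHom.id_apply, h1]; group
    rw [h2, ncard_FS_conj]
  obtain ⟨b, hb | hb⟩ := exists_sq_or_neg hK (Units.mk0 v hv * (Units.mk0 w hw)⁻¹)
  · have h1 : v = (b : K) * b * w := by
      have h2 := congrArg (fun x : Kˣ => (x : K)) hb
      simp only [Units.val_mul, Units.val_mk0, Units.val_inv_eq_inv_val] at h2
      rw [← h2, mul_assoc, inv_mul_cancel₀ hw, mul_one]
    rw [h1]
    exact key b w
  · have h1 : v = -((b : K) * b * w) := by
      have h2 := congrArg (fun x : Kˣ => (x : K)) hb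
      simp only [Units.val_mul, Units.val_mk0, Units.val_inv_eq_inv_val, Units.val_neg] at h2
      rw [← neg_mul, ← h2, mul_assoc, inv_mul_cancel₀ hw, mul_one]
    rw [h1, D.U_neg, ncard_FS_inv]
    exact key b w

theorem two_FSS_q (D : Data m U h n) {H : Subgroup G} (a : Kˣ) :
    2 * (FSS (MonoidHom.id G) H (qSub D : Set G)).ncard ≤ Nat.card G + (FS (MonoidHom.id G) H (h (a * a))).ncard := by
  classical
  obtain ⟨E, hE⟩ : ∃ E : Set G, E = (fun e => (MonoidHom.id G) n * e * ((MonoidHom.id G) n)⁻¹) '' (qSub D : Set G) :=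
    ⟨_, rfl⟩
  have h1 : (FSS (MonoidHom.id G) H E).ncard = (FSS (MonoidHom.id G) H (qSub D : Set G)).ncard := by
    rw [hE]; exact ncard_FSS_conj _ n
  have h2 := Set.ncard_union_add_ncard_inter (FSS (MonoidHom.id G) H (qSub D : Set G)) (FSS (MonoidHom.id G) H E)
  rw [h1] at h2
  have h3 : (FSS (MonoidHom.id G) H (qSub D : Set G) ∪ FSS (MonoidHom.id G) H E).ncard ≤ Nat.card G := by
    rw [← Set.ncard_univ]
    exact Set.ncard_le_ncard (Set.subset_univ _) (Set.toFinite _)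
  have h4 : FSS (MonoidHom.id G) H (qSub D : Set G) ∩ FSS (MonoidHom.id G) H E ⊆
      FS (MonoidHom.id G) H (h (a * a)) := by
    rintro x ⟨hx1, hx2⟩
    -- `h a` acts on both subgroups
    have hQ : ∀ b : Kˣ, ∀ e ∈ qSub D, h b * e * (h b)⁻¹ ∈ qSub D := by
      rintro b _ ⟨u, rfl⟩
      have h5 := D.h_U b 0 u 0
      rw [mul_zero, mul_zero] at h5
      rw [h5, mul_inv_cancel_right]
      exact ⟨_, rfl⟩
    have hEm : ∀ e ∈ qSub D, n * e * n ∈ E := by
      intro e he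
      rw [hE]
      refine ⟨e, he, ?_⟩
      change n * e * n⁻¹ = n * e * n
      rw [D.n_inv]
    have hnE : ∀ b : Kˣ, x ∈ FS (MonoidHom.id G) H (h b * n * (h b)⁻¹) := by
      intro b
      have h5 : h b * n * (h b)⁻¹ = (h b * U 0 1 0 * (h b)⁻¹) * (h b * (n * U 0 1 0 * n) * (h b)⁻¹) *
          (h b * U 0 1 0 * (h b)⁻¹) := by
        have h6 : U 0 1 0 * (n * U 0 1 0 * n) * U 0 1 0 = n := by
          have h7 : U 0 (-1) 0 = (U 0 1 0)⁻¹ := D.U_neg 1
          rw [D.n_U, h7]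
          group
        calc h b * n * (h b)⁻¹ = h b * (U 0 1 0 * (n * U 0 1 0 * n) * U 0 1 0) * (h b)⁻¹ := by rw [h6]
          _ = _ := by group
      rw [h5]
      refine FS_mul (FS_mul ?_ ?_) ?_
      · exact hx1 _ (hQ b _ ⟨1, rfl⟩)
      · have h6 : h b * (n * U 0 1 0 * n) * (h b)⁻¹ = n * (h b⁻¹ * U 0 1 0 * (h b⁻¹)⁻¹) * n := by
          have h7 : h b * n = n * h b⁻¹ := D.n_h' b
          have h8 : n * (h b)⁻¹ = (h b⁻¹)⁻¹ * n := by
            rw [← D.h_inv, D.n_h, D.h_inv (b⁻¹)]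
          calc h b * (n * U 0 1 0 * n) * (h b)⁻¹ = (h b * n) * U 0 1 0 * (n * (h b)⁻¹) := by group
            _ = n * (h b⁻¹ * U 0 1 0 * (h b⁻¹)⁻¹) * n := by rw [h7, h8]; group
        rw [h6]
        exact hx2 _ (hEm _ (hQ _ _ ⟨1, rfl⟩))
      · exact hx1 _ (hQ b _ ⟨1, rfl⟩)
    have h5 : h (a * a) = (h a * n * (h a)⁻¹) * (h 1 * n * (h 1)⁻¹) := by
      have h7 : n * (h a)⁻¹ = h a * n := by
        rw [← D.h_inv, D.n_h, inv_inv]
      rw [D.h_one, one_mul, inv_one, mul_one, mul_assoc (h a), h7, mul_assoc, mul_assoc, D.n_n, mul_one, D.h_mul]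
    rw [h5]
    exact FS_mul (hnE a) (hnE 1)
  have h5 := Set.ncard_le_ncard h4 (Set.toFinite _)
  omega

/-- **The ratio of an element of order `3`.** -/
theorem ratio_three [IsSimpleGroup G] (D : Data m U h n) (hK : Fintype.card K = 3 ^ (2 * m + 1)) {H : Subgroup G}
    (hH : H ≠ ⊤) (a : Kˣ) {z : G} (hz : orderOf z = 3) :
    3 * (FS (MonoidHom.id G) H z).ncard ≤ 2 * Nat.card G + (FS (MonoidHom.id G) H (h (a * a))).ncard := by
  classical
  have hR : IsPGroup 3 (Subgroup.zpowers z) := IsPGroup.of_card (n := 1) (by rw [Nat.card_zpowers, hz, pow_one])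
  obtain ⟨g, hg⟩ := three_le D hK hR
  obtain ⟨t, u, v, htuv⟩ := hg z (Subgroup.mem_zpowers z)
  have hz3 : z ^ 3 = 1 := by rw [← hz, pow_orderOf_eq_one]
  have hz1 : z ≠ 1 := by
    rintro rfl
    rw [orderOf_one] at hz
    norm_num at hz
  have h1 : (g⁻¹ * z * g) ^ 3 = 1 := by
    have := conj_pow (i := 3) (a := g⁻¹) (b := z)
    rw [inv_inv] at this
    rw [this, hz3]; group
  rw [htuv, U_cube D hK, ← D.U_zero] at h1
  have ht : t = 0 := by
    have h2 := (U_injective D h1).2.2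
    rw [neg_eq_zero] at h2
    rcases mul_eq_zero.1 h2 with h3 | h3
    · exact pow_eq_zero_iff (two_ne_zero) |>.1 h3
    · exact pow_eq_zero_iff (by positivity) |>.1 h3
  subst ht
  have hzc : (FS (MonoidHom.id G) H z).ncard = (FS (MonoidHom.id G) H (U 0 u v)).ncard := by
    rw [← htuv]
    have h2 : g⁻¹ * z * g = (MonoidHom.id G) g⁻¹ * z * ((MonoidHom.id G) g⁻¹)⁻¹ := by
      rw [MonoidHom.id_apply, inv_inv]
    rw [h2, ncard_FS_conj]
  rw [hzc]
  by_cases hu : u = 0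
  · subst hu
    have hv : v ≠ 0 := by
      rintro rfl
      rw [D.U_zero] at htuv
      apply hz1
      calc z = g * (g⁻¹ * z * g) * g⁻¹ := by group
        _ = 1 := by rw [htuv]; group
    have h2 := FS_elem (ι := MonoidHom.id G) (K := H) (zSub D) (f := 2 * m + 1) (by omega)
      (by rw [card_zSub, hK]) (a := (FS (MonoidHom.id G) H (U 0 0 v)).ncard) (by
        rintro _ ⟨w, rfl⟩ hw
        exact FS_z_const D hK H (fun h0 => hw (by rw [h0, D.U_zero])) hv)
    have h3 := two_FSS_z D hK hH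
    omega
  · -- conjugate to `U 0 u 0`
    have h4 : U 0 u 0 = (MonoidHom.id G) (U (-v / u) 0 0) * U 0 u v * ((MonoidHom.id G) (U (-v / u) 0 0))⁻¹ := by
      rw [MonoidHom.id_apply, eq_mul_inv_iff_mul_eq, D.U_mul, D.U_mul]
      have h0 : (0 : K) ^ (3 ^ (m + 1)) = 0 := zero_pow (by positivity)
      simp only [h0]
      congr 1
      · ring
      · ring
      · field_simp
        ring
    have h5 : (FS (MonoidHom.id G) H (U 0 u v)).ncard = (FS (MonoidHom.id G) H (U 0 u 0)).ncard := by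
      rw [h4, ncard_FS_conj]
    rw [h5]
    have h2 := FS_elem (ι := MonoidHom.id G) (K := H) (qSub D) (f := 2 * m + 1) (by omega)
      (by rw [card_qSub, hK]) (a := (FS (MonoidHom.id G) H (U 0 u 0)).ncard) (by
        rintro _ ⟨w, rfl⟩ hw
        exact FS_q_const D hK H (fun h0 => hw (by rw [h0, D.U_zero])) hu)
    have h3 := two_FSS_q D (H := H) a
    omega

end Cfsg.Agent.H452.RG.ReeD
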